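import Mathlib.Tactic

/-!
# Inequalities for the big defect rows of POmega (helper31)
-/

set_option autoImplicit false

namespace Cfsg.Agent.H31.BD

/-- the common combination: all the data as powers of `q` -/
theorem combine {q o A P B a b c : ℕ} (hq : 1 < q) (ho : 4 * o ^ 5 ≤ q ^ 12) (hA : A ≤ q ^ a) (hP : P ^ 6 ≤ q ^ b)
    (hB : q ^ c ≤ B) (h : 24 + 4 * a + b ≤ 4 * c) : 4 * o ^ 5 * A ^ 2 * P ^ 3 ≤ B ^ 2 := by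
  have h1 : (4 * o ^ 5 * A ^ 2 * P ^ 3) ^ 2 ≤ (B ^ 2) ^ 2 := by
    calc (4 * o ^ 5 * A ^ 2 * P ^ 3) ^ 2 = (4 * o ^ 5) ^ 2 * A ^ 4 * P ^ 6 := by ring
      _ ≤ (q ^ 12) ^ 2 * (q ^ a) ^ 4 * q ^ b := by gcongr
      _ = q ^ (24 + 4 * a + b) := by rw [← pow_mul, ← pow_mul, ← pow_add, ← pow_add]; ring_nf
      _ ≤ q ^ (4 * c) := Nat.pow_le_pow_right (by omega) h
      _ = (q ^ c) ^ 4 := by rw [← pow_mul]; ring_nf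
      _ ≤ B ^ 4 := Nat.pow_le_pow_left hB 4
      _ = (B ^ 2) ^ 2 := by ring
  exact (Nat.pow_le_pow_iff_left (by norm_num)).1 h1

/-- `4 o ^ 5 ≤ q ^ 12` -/
theorem ho12 {q o : ℕ} (hq : 2 ≤ q) (ho : o ≤ q ^ 2) : 4 * o ^ 5 ≤ q ^ 12 := by
  calc 4 * o ^ 5 ≤ q ^ 2 * (q ^ 2) ^ 5 := by
        gcongr
        nlinarith
    _ = q ^ 12 := by ring

/-- `27 (x + 1) ^ 6 ≤ x ^ 10`, `x ≥ 4` -/
theorem pow10 {x : ℕ} (hx : 4 ≤ x) : 27 * (x + 1) ^ 6 ≤ x ^ 10 := by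
  obtain ⟨y, rfl⟩ := Nat.exists_eq_add_of_le hx
  -- 4 (x + 1) ≤ 5 x
  have h1 : (4 * (4 + y + 1)) ^ 6 ≤ (5 * (4 + y)) ^ 6 := Nat.pow_le_pow_left (by omega) 6
  have h2 : 27 * 5 ^ 6 ≤ 4 ^ 6 * (4 + y) ^ 4 := by
    calc 27 * 5 ^ 6 ≤ 4 ^ 6 * 4 ^ 4 := by norm_num
      _ ≤ 4 ^ 6 * (4 + y) ^ 4 := by gcongr
  have h3 : 4 ^ 6 * (27 * (4 + y + 1) ^ 6) ≤ 4 ^ 6 * (4 + y) ^ 10 := by
    calc 4 ^ 6 * (27 * (4 + y + 1) ^ 6) = 27 * (4 * (4 + y + 1)) ^ 6 := by rw [mul_pow]; ring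
      _ ≤ 27 * (5 * (4 + y)) ^ 6 := by gcongr
      _ = (27 * 5 ^ 6) * (4 + y) ^ 6 := by rw [mul_pow]; ring
      _ ≤ (4 ^ 6 * (4 + y) ^ 4) * (4 + y) ^ 6 := by gcongr
      _ = 4 ^ 6 * (4 + y) ^ 10 := by ring
  exact Nat.le_of_mul_le_mul_left h3 (by norm_num)

/-- `27 (x + 1) ^ 6 ≤ x ^ 8`, `x ≥ 8` -/
theorem pow8 {x : ℕ} (hx : 8 ≤ x) : 27 * (x + 1) ^ 6 ≤ x ^ 8 := by
  obtain ⟨y, rfl⟩ := Nat.exists_eq_add_of_le hx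
  have h1 : (8 * (8 + y + 1)) ^ 6 ≤ (9 * (8 + y)) ^ 6 := Nat.pow_le_pow_left (by omega) 6
  have h2 : 27 * 9 ^ 6 ≤ 8 ^ 6 * (8 + y) ^ 2 := by
    calc 27 * 9 ^ 6 ≤ 8 ^ 6 * 8 ^ 2 := by norm_num
      _ ≤ 8 ^ 6 * (8 + y) ^ 2 := by gcongr
  have h3 : 8 ^ 6 * (27 * (8 + y + 1) ^ 6) ≤ 8 ^ 6 * (8 + y) ^ 8 := by
    calc 8 ^ 6 * (27 * (8 + y + 1) ^ 6) = 27 * (8 * (8 + y + 1)) ^ 6 := by rw [mul_pow]; ring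
      _ ≤ 27 * (9 * (8 + y)) ^ 6 := by gcongr
      _ = (27 * 9 ^ 6) * (8 + y) ^ 6 := by rw [mul_pow]; ring
      _ ≤ (8 ^ 6 * (8 + y) ^ 2) * (8 + y) ^ 6 := by gcongr
      _ = 8 ^ 6 * (8 + y) ^ 8 := by ring
  exact Nat.le_of_mul_le_mul_left h3 (by norm_num)

/-- the bound for `P ^ 6` -/
theorem P6 {x P k n e : ℕ} (h27 : 27 * (x + 1) ^ 6 ≤ x ^ n) (hP : P ^ 2 ≤ (3 * (x + 1) ^ 2) ^ k) (he : e = n * k) :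
    P ^ 6 ≤ x ^ e := by
  subst he
  calc P ^ 6 = (P ^ 2) ^ 3 := by ring
    _ ≤ ((3 * (x + 1) ^ 2) ^ k) ^ 3 := by gcongr
    _ = (27 * (x + 1) ^ 6) ^ k := by
        rw [← pow_mul, mul_comm k 3, pow_mul]
        congr 1
        ring
    _ ≤ (x ^ n) ^ k := by gcongr
    _ = x ^ (n * k) := by rw [← pow_mul]

theorem ineqA {q m o A P B : ℕ} (hq : 4 ≤ q) (hm : 9 ≤ m) (ho : o ≤ q ^ 2) (hA : A < q ^ (2 * m + 1))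
    (hP : P ^ 2 ≤ (3 * (q + 1) ^ 2) ^ m) (hB : q ^ (m * (m - 1)) ≤ B) : 4 * o ^ 5 * A ^ 2 * P ^ 3 ≤ B ^ 2 := by
  refine combine (by omega) (ho12 (by omega) ho) hA.le (P6 (pow10 hq) hP rfl) hB ?_
  obtain ⟨k, rfl⟩ := Nat.exists_eq_add_of_le hm
  have h1 : 9 + k - 1 = 8 + k := by omega
  rw [h1]
  nlinarith

theorem ineqB {q e p w o A P B : ℕ} (hq : 2 ≤ q) (he : 3 ≤ e) (hp : 2 * e + 1 ≤ p) (hw : p ^ 2 ≤ w)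
    (ho : o ≤ q ^ 2) (hA : A < q ^ (2 * e * (w + 1) * e)) (hP : P ^ 2 ≤ (3 * (q ^ e + 1) ^ 2) ^ (w + 1))
    (hB : q ^ (e * ((w - 1) * (w - 2) / 2)) ≤ B) : 4 * o ^ 5 * A ^ 2 * P ^ 3 ≤ B ^ 2 := by
  have hx : 8 ≤ q ^ e := by
    calc 8 = 2 ^ 3 := by norm_num
      _ ≤ q ^ 3 := Nat.pow_le_pow_left hq 3
      _ ≤ q ^ e := Nat.pow_le_pow_right (by omega) he
  have h6 := P6 (pow8 hx) hP rfl
  rw [← pow_mul] at h6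
  refine combine (by omega) (ho12 hq ho) hA.le h6 hB ?_
  have h1 : (2 * e + 1) ^ 2 ≤ w := (Nat.pow_le_pow_left hp 2).trans hw
  have hw1 : 49 ≤ w := le_trans (by nlinarith) h1
  obtain ⟨u, rfl⟩ := Nat.exists_eq_add_of_le hw1
  have h3 : 49 + u - 1 = 48 + u := by omega
  have h3' : 49 + u - 2 = 47 + u := by omega
  rw [h3, h3']
  obtain ⟨k, hk⟩ : ∃ k, (48 + u) * (47 + u) = 2 * k := by
    have h2 := Nat.even_mul_succ_self (47 + u)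
    obtain ⟨k, hk⟩ := h2
    refine ⟨k, ?_⟩
    rw [← two_mul] at hk
    rw [← hk, mul_comm]
    congr 1
    omega
  rw [hk, Nat.mul_div_cancel_left _ (by norm_num : 0 < 2)]
  have h4 : 4 * e + 4 * e ^ 2 ≤ 48 + u := by nlinarith
  have h5 : 4 * (e * k) = e * (2 * ((48 + u) * (47 + u))) := by rw [hk]; ring
  rw [h5]
  nlinarith [Nat.mul_le_mul_left (49 + u + 1) h4, Nat.mul_le_mul_left e h4]

theorem ineqC {q f p w o A P B : ℕ} (hq : 2 ≤ q) (hx : 4 ≤ q ^ f) (hf : 1 ≤ f) (hp : 2 * f + 1 ≤ p) (hw : p ^ 2 ≤ w)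
    (ho : o ≤ q ^ 2) (hA : A < q ^ (2 * f * (w + 1) * (2 * f))) (hP : P ^ 2 ≤ (3 * (q ^ f + 1) ^ 2) ^ (w + 1))
    (hB : q ^ (f * w * (f * w - 1)) ≤ B) : 4 * o ^ 5 * A ^ 2 * P ^ 3 ≤ B ^ 2 := by
  have h6 := P6 (pow10 hx) hP rfl
  rw [← pow_mul] at h6
  refine combine (by omega) (ho12 hq ho) hA.le h6 hB ?_
  have h1 : (2 * f + 1) ^ 2 ≤ w := (Nat.pow_le_pow_left hp 2).trans hw
  have hw1 : 9 ≤ w := le_trans (by nlinarith) h1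
  obtain ⟨u, rfl⟩ := Nat.exists_eq_add_of_le hw1
  obtain ⟨k, rfl⟩ := Nat.exists_eq_add_of_le hf
  have h3 : (1 + k) * (9 + u) - 1 = 8 + u + k * (9 + u) := by
    have h4 : (1 + k) * (9 + u) = 8 + u + k * (9 + u) + 1 := by ring
    omega
  rw [h3]
  have h5 : 4 * ((1 + k) * (9 + u) * (8 + u + k * (9 + u))) =
      24 + 4 * (2 * (1 + k) * (9 + u + 1) * (2 * (1 + k))) + (1 + k) * (10 * (9 + u + 1)) +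
      (4 * u ^ 2 * k ^ 2 + 8 * u ^ 2 * k + 4 * u ^ 2 + 56 * u * k ^ 2 + 98 * u * k + 42 * u + 164 * k ^ 2 + 192 * k + 4) := by
    ring
  rw [h5]
  exact Nat.le_add_right _ _

theorem combineD {m w o A P B : ℕ} {b : ℕ} (ho : o ≤ 2) (hA : A < 2 ^ (4 * m)) (hP : P ^ 6 ≤ 2 ^ b)
    (hB : 2 ^ (w * (w - 1)) ≤ B) (h : 14 + 16 * m + b ≤ 4 * (w * (w - 1))) : 4 * o ^ 5 * A ^ 2 * P ^ 3 ≤ B ^ 2 := by
  have h0 : 4 * o ^ 5 ≤ 2 ^ 7 := by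
    calc 4 * o ^ 5 ≤ 4 * 2 ^ 5 := by gcongr
      _ = 2 ^ 7 := by norm_num
  have h1 : (4 * o ^ 5 * A ^ 2 * P ^ 3) ^ 2 ≤ (B ^ 2) ^ 2 := by
    calc (4 * o ^ 5 * A ^ 2 * P ^ 3) ^ 2 = (4 * o ^ 5) ^ 2 * A ^ 4 * P ^ 6 := by ring
      _ ≤ (2 ^ 7) ^ 2 * (2 ^ (4 * m)) ^ 4 * 2 ^ b := by gcongr
      _ = 2 ^ (14 + 16 * m + b) := by rw [← pow_mul, ← pow_mul, ← pow_add, ← pow_add]; ring_nf
      _ ≤ 2 ^ (4 * (w * (w - 1))) := Nat.pow_le_pow_right (by norm_num) h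
      _ = (2 ^ (w * (w - 1))) ^ 4 := by rw [← pow_mul]; ring_nf
      _ ≤ B ^ 4 := Nat.pow_le_pow_left hB 4
      _ = (B ^ 2) ^ 2 := by ring
  exact (Nat.pow_le_pow_iff_left (by norm_num)).1 h1

theorem ineqD {m w o A P B : ℕ} (h : (m = w ∧ 9 ≤ w) ∨ (m = w + 1 ∧ 10 ≤ w)) (ho : o ≤ 2) (hA : A < 2 ^ (4 * m))
    (hP : P ^ 2 ≤ 27 ^ m) (hB : 2 ^ (w * (w - 1)) ≤ B) : 4 * o ^ 5 * A ^ 2 * P ^ 3 ≤ B ^ 2 := by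
  have h15 : P ^ 6 ≤ 2 ^ (15 * m) := by
    calc P ^ 6 = (P ^ 2) ^ 3 := by ring
      _ ≤ (27 ^ m) ^ 3 := by gcongr
      _ = (27 ^ 3) ^ m := by rw [← pow_mul, ← pow_mul, mul_comm]
      _ ≤ (2 ^ 15) ^ m := Nat.pow_le_pow_left (by norm_num) m
      _ = 2 ^ (15 * m) := by rw [← pow_mul]
  by_cases h9 : w = 9
  · have hm : m = 9 := by omega
    subst h9 hm
    refine combineD ho hA (b := 129) ?_ hB (by norm_num)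
    calc P ^ 6 = (P ^ 2) ^ 3 := by ring
      _ ≤ (27 ^ 9) ^ 3 := by gcongr
      _ ≤ 2 ^ 129 := by norm_num
  · refine combineD ho hA h15 hB ?_
    have hw : 10 ≤ w := by omega
    have hm : m ≤ w + 1 := by omega
    obtain ⟨u, rfl⟩ := Nat.exists_eq_add_of_le hw
    have h3 : 10 + u - 1 = 9 + u := by omega
    rw [h3]
    nlinarith

theorem ineqE {o A P B : ℕ} (ho : o ≤ 2) (hA : A < 22839208876) (hP : P ^ 2 ≤ 27 ^ 9) (hB : 2 ^ 72 ≤ B) :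
    4 * o ^ 5 * A ^ 2 * P ^ 3 ≤ B ^ 2 := by
  have h1 : (4 * o ^ 5 * A ^ 2 * P ^ 3) ^ 2 ≤ (B ^ 2) ^ 2 := by
    calc (4 * o ^ 5 * A ^ 2 * P ^ 3) ^ 2 = (4 * o ^ 5) ^ 2 * A ^ 4 * (P ^ 2) ^ 3 := by ring
      _ ≤ (4 * 2 ^ 5) ^ 2 * 22839208876 ^ 4 * (27 ^ 9) ^ 3 := by gcongr
      _ ≤ (2 ^ 72) ^ 4 := by norm_num
      _ ≤ B ^ 4 := Nat.pow_le_pow_left hB 4
      _ = (B ^ 2) ^ 2 := by ring
  exact (Nat.pow_le_pow_iff_left (by norm_num)).1 h1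

end Cfsg.Agent.H31.BD
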